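import Mathlib
import Cfsg.Agent.Lib.Block.Major

/-! Definitions for blocks whose defect group has a central cyclic subgroup of small index. -/

set_option autoImplicit false

namespace H85.C16

open Cfsg
open H86 (Cen Nor)
open Subgroup (zpowers)

/-- The two situations in which a major subsection bounds the number of characters. -/
def Bd (p : ℕ) {K : Type*} [Group K] [Fintype K] (c : Set (IrrCharacter K)) : Prop :=
  H84.LatMin p c (blockRank p c) ∨ (p = 2 ∧ blockRank p c ≤ 3)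

/-- `T` acts trivially on `P / N` and regularly (modulo `C(P)`) on the nontrivial elements of `N`. -/
structure WG {G : Type*} [Group G] (P T N : Subgroup G) (w : G) : Prop where
  le : N ≤ P
  mem : w ∈ N
  ne : w ≠ 1
  foc : ∀ t ∈ T, ∀ u ∈ P, u⁻¹ * (t * u * t⁻¹) ∈ N
  tr : ∀ v ∈ N, v ≠ 1 → ∃ t ∈ T, t * w * t⁻¹ = v
  fr : ∀ t ∈ T, ∀ v ∈ N, v ≠ 1 → t * v * t⁻¹ = v → t ∈ Cen P

/-- `C₃ × C₃` acting on `2² × 2²`. -/
structure X9G {G : Type*} [Group G] (P T V₁ V₂ : Subgroup G) (u₁ u₂ : G) : Prop where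
  card : Nat.card P = 16
  sq : ∀ x ∈ P, x ^ 2 = 1
  c1 : Nat.card V₁ = 4
  c2 : Nat.card V₂ = 4
  dis : V₁ ⊓ V₂ = ⊥
  n1 : T ≤ Nor V₁
  n2 : T ≤ Nor V₂
  w1 : WG P (T ⊓ Cen (zpowers u₂)) V₁ u₁
  w2 : WG P (T ⊓ Cen (zpowers u₁)) V₂ u₂

/-- Elements of order prime to `p` normalising the image of `φ` come from automorphisms of `D`
fixing `y`. -/
def Lift (p : ℕ) {D K : Type*} [Group D] [Group K] (φ : D →* K) (y : D) : Prop :=
  ∀ t ∈ Nor φ.range, ¬ p ∣ orderOf t → ∃ α : MulAut D, ¬ p ∣ orderOf α ∧ α y = y ∧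
    ∀ x, φ (α x) = t * φ x * t⁻¹

end H85.C16
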