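import Mathlib

/-! Lower bounds for some integral quadratic forms. -/

set_option autoImplicit false
set_option linter.unusedSectionVars false

open Finset
open scoped ComplexConjugate

namespace H85.C16

variable {I : Type*} [Fintype I] [DecidableEq I]

/-- A nonempty cotransitive relation has many edges. -/
theorem cotr (T : I → I → ℤ) (μ : ℤ) (h0 : ∀ i j, T i j = 0 ∨ μ ≤ T i j) (hμ : 0 ≤ μ)
    (hs : ∀ i j, T i j = T j i) (hr : ∀ i, T i i = 0)
    (ht : ∀ i j k, T i k = 0 → T j k = 0 → T i j = 0) :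
    (∀ i j, T i j = 0) ∨ 2 * ((Fintype.card I : ℤ) - 1) * μ ≤ ∑ i, ∑ j, T i j := by
  refine or_iff_not_imp_left.2 fun h => ?_
  push Not at h
  obtain ⟨a, b, hab⟩ := h
  have hne : a ≠ b := fun e => hab (e ▸ hr a)
  have hn : ∀ i j, 0 ≤ T i j := fun i j => (h0 i j).elim (fun e => e.ge) hμ.trans
  have h1 : ∀ k, μ ≤ T a k + T b k := fun k => by
    have := hn a k; have := hn b k
    rcases h0 a k with e | e
    · rcases h0 b k with e' | e'
      · exact absurd (ht a b k e e') hab
      · omega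
    · omega
  have h2 : (Fintype.card I : ℤ) * μ ≤ ∑ j, T a j + ∑ j, T b j := by
    rw [← sum_add_distrib]
    simpa using card_nsmul_le_sum univ _ μ fun k _ => h1 k
  have h3 : (({a, b} : Finset I)ᶜ.card : ℤ) * μ ≤ ∑ i ∈ ({a, b} : Finset I)ᶜ, ∑ j, T i j := by
    simpa using card_nsmul_le_sum _ _ μ fun k _ => by
      refine (h1 k).trans ?_
      rw [hs a, hs b, ← sum_pair (f := T k) hne]
      exact sum_le_sum_of_subset_of_nonneg (subset_univ _) fun j _ _ => hn k j
  have h4 := card_add_card_compl ({a, b} : Finset I)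
  rw [card_pair hne] at h4
  rw [← sum_add_sum_compl {a, b}, sum_pair hne]
  have h5 : (({a, b} : Finset I)ᶜ.card : ℤ) = Fintype.card I - 2 := by omega
  rw [h5] at h3
  linarith

theorem zero_or_one_le {n : ℤ} (h : 0 ≤ n) : n = 0 ∨ 1 ≤ n := by omega

/-- The orthogonal complement of a vector without zero entries. -/
theorem lagr (d : I → ℂ) (hd : ∀ i, d i ≠ 0) (t : I → I → ℤ) (ht : ∀ i j, (t i j : ℂ) = d i * conj (d j))
    (x : I → ℤ) : (∑ i, t i i) * ∑ i, x i ^ 2 - ∑ i, ∑ j, x i * x j * t i j = 0 ∨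
      (Fintype.card I : ℤ) - 1 ≤ (∑ i, t i i) * ∑ i, x i ^ 2 - ∑ i, ∑ j, x i * x j * t i j := by
  have hs : ∀ i j, t i j = t j i := fun i j => by
    have := congrArg conj (ht i j)
    rw [map_intCast, map_mul, Complex.conj_conj, mul_comm, ← ht] at this
    exact_mod_cast this
  let T : I → I → ℤ := fun i j => x i ^ 2 * t j j + x j ^ 2 * t i i - 2 * (x i * x j * t i j)
  have hT : ∀ i j, (T i j : ℝ) = Complex.normSq (x i * d j - x j * d i) := fun i j => by
    apply Complex.ofReal_injective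
    rw [← Complex.mul_conj]
    have e1 := ht i j
    have e2 := ht j i
    rw [← hs] at e2
    simp only [T, map_sub, map_mul, map_intCast]
    push_cast
    rw [ht j j, ht i i]
    linear_combination (-(x i : ℂ) * x j) * e1 - (x i : ℂ) * x j * e2
  have h0 : ∀ i j, T i j = 0 ↔ (x i : ℂ) * d j = x j * d i := fun i j => by
    rw [← sub_eq_zero (a := (x i : ℂ) * d j), ← Complex.normSq_eq_zero, ← hT, Int.cast_eq_zero]
  have hsum : ∑ i, ∑ j, T i j =
      2 * ((∑ i, t i i) * ∑ i, x i ^ 2 - ∑ i, ∑ j, x i * x j * t i j) := by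
    simp only [T, sum_sub_distrib, sum_add_distrib, ← mul_sum, ← sum_mul]
    ring
  rcases cotr T 1 (fun i j => zero_or_one_le (by
      have := Complex.normSq_nonneg (x i * d j - x j * d i)
      rw [← hT] at this; exact_mod_cast this)) zero_le_one
    (fun i j => by simp only [T, hs i j]; ring) (fun i => (h0 i i).2 rfl)
    (fun i j k h1 h2 => (h0 i j).2 (mul_right_cancel₀ (hd k) (by
      linear_combination d j * (h0 i k).1 h1 - d i * (h0 j k).1 h2))) with h | h
  · simp only [h, sum_const_zero] at hsum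
    exact Or.inl (by omega)
  · exact Or.inr (by omega)

/-- The form of a block with a free inertial action. -/
theorem exc_form (a n : I → ℤ) (ha : ∀ i, a i ≠ 0) {r m s : ℤ} (hr : 1 ≤ r) (hm : m ≠ 0) {q : ℤ}
    (hq : m ^ 2 * q = (r * ∑ i, a i ^ 2 + m ^ 2) * ∑ i, (m * n i - s * a i) ^ 2 -
      r * (∑ i, a i * (m * n i - s * a i)) ^ 2) : q = 0 ∨ (Fintype.card I : ℤ) ≤ q := by
  let x : Option I → ℤ := fun o => o.elim s n
  let d : Option I → ℤ := fun o => o.elim m a
  let w : Option I → ℤ := fun o => o.elim 0 fun _ => 1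
  have hd : ∀ o, d o ≠ 0 := by rintro (_ | i); exacts [hm, ha i]
  have hw : ∀ o o', 1 ≤ 1 + (r - 1) * (w o * w o') := by
    rintro (_ | i) (_ | j) <;> simp [w, hr]
  let T : Option I → Option I → ℤ := fun o o' =>
    (1 + (r - 1) * (w o * w o')) * (x o * d o' - x o' * d o) ^ 2
  have h0 : ∀ i j, T i j = 0 ↔ x i * d j = x j * d i := fun i j => by
    have := hw i j
    simp only [T, mul_eq_zero, pow_eq_zero_iff two_ne_zero, sub_eq_zero]
    exact or_iff_right (by omega)
  have hsum : ∑ i, ∑ j, T i j = 2 * q := by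
    refine mul_left_cancel₀ (pow_ne_zero 2 hm) ?_
    rw [mul_left_comm, hq]
    have e1 : ∑ i, (m * n i - s * a i) ^ 2 =
        m ^ 2 * ∑ i, n i ^ 2 - 2 * m * s * ∑ i, a i * n i + s ^ 2 * ∑ i, a i ^ 2 := by
      simp only [mul_sum, ← sum_sub_distrib, ← sum_add_distrib]
      exact sum_congr rfl fun i _ => by ring
    have e2 : ∑ i, a i * (m * n i - s * a i) = m * ∑ i, a i * n i - s * ∑ i, a i ^ 2 := by
      simp only [mul_sum, ← sum_sub_distrib]
      exact sum_congr rfl fun i _ => by ring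
    have e3 : ∑ i, ∑ j, T (some i) (some j) =
        r * (2 * ((∑ i, a i ^ 2) * ∑ i, n i ^ 2) - 2 * (∑ i, a i * n i) ^ 2) := by
      have : ∀ i j, T (some i) (some j) =
          r * (n i ^ 2 * a j ^ 2 + a i ^ 2 * n j ^ 2 - 2 * (a i * n i * (a j * n j))) := fun i j => by
        simp only [T, x, d, w, Option.elim]; ring
      simp only [this, sum_sub_distrib, sum_add_distrib, ← mul_sum, ← sum_mul]
      ring
    have e4 : ∑ i, T (some i) none = ∑ i, (m * n i - s * a i) ^ 2 :=
      sum_congr rfl fun i _ => by simp only [T, x, d, w, Option.elim]; ring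
    have e5 : ∑ i, T none (some i) = ∑ i, (m * n i - s * a i) ^ 2 :=
      sum_congr rfl fun i _ => by simp only [T, x, d, w, Option.elim]; ring
    simp only [Fintype.sum_option, sum_add_distrib]
    rw [e3, e4, e5, (h0 none none).2 rfl, e1, e2]
    ring
  rcases cotr T 1 (fun i j => zero_or_one_le (mul_nonneg (zero_le_one.trans (hw i j)) (sq_nonneg _)))
    zero_le_one (fun i j => by simp only [T]; ring) (fun i => (h0 i i).2 rfl)
    (fun i j k h1 h2 => (h0 i j).2 (mul_right_cancel₀ (hd k) (by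
      linear_combination d j * (h0 i k).1 h1 - d i * (h0 j k).1 h2))) with h | h
  · simp only [h, sum_const_zero] at hsum
    exact Or.inl (by omega)
  · rw [Fintype.card_option] at h
    exact Or.inr (by push_cast at h; omega)

theorem grid (y : Fin 4 → Fin 4 → ℤ) {q : ℤ} (hq : q = 16 * ∑ a, ∑ b, y a b ^ 2 -
    4 * ∑ a, (∑ b, y a b) ^ 2 - 4 * ∑ b, (∑ a, y a b) ^ 2 + (∑ a, ∑ b, y a b) ^ 2) :
    q = 0 ∨ 9 ≤ q := by
  let T : Fin 4 → Fin 4 → ℤ := fun a a' => ∑ b, ∑ b', (y a b - y a' b - (y a b' - y a' b')) ^ 2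
  have h0 : ∀ a a', T a a' = 0 ↔ ∀ b b', y a b - y a' b = y a b' - y a' b' := fun a a' => by
    simp only [T]
    rw [sum_eq_zero_iff_of_nonneg fun _ _ => sum_nonneg fun _ _ => sq_nonneg _]
    refine forall_congr' fun b => ?_
    rw [sum_eq_zero_iff_of_nonneg fun _ _ => sq_nonneg _]
    simp [sub_eq_zero]
  have hsum : ∑ a, ∑ a', T a a' = 4 * q := by
    simp only [hq, T, Fin.sum_univ_four]; ring
  rcases cotr T 6 (fun a a' => (cotr (fun b b' => (y a b - y a' b - (y a b' - y a' b')) ^ 2) 1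
      (fun _ _ => zero_or_one_le (sq_nonneg _)) zero_le_one (fun _ _ => by ring) (fun _ => by ring)
      (fun i j k h1 h2 => by
        rw [pow_eq_zero_iff two_ne_zero] at h1 h2 ⊢; omega)).imp
      (fun h => by simp only [T, h, sum_const_zero]) fun h => by simpa using h)
    (by norm_num) (fun a a' => sum_congr rfl fun _ _ => sum_congr rfl fun _ _ => by ring)
    (fun a => (h0 a a).2 fun _ _ => by ring)
    (fun i j k h1 h2 => (h0 i j).2 fun b b' => by
      have := (h0 i k).1 h1 b b'; have := (h0 j k).1 h2 b b'; omega) with h | h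
  · simp only [h, sum_const_zero] at hsum
    exact Or.inl (by omega)
  · simp only [Fintype.card_fin] at h
    exact Or.inr (by push_cast at h; omega)

/-- `U / 4` is an orthogonal projection fixing `d`. -/
structure Prj (U : I → I → ℤ) (d : I → ℤ) : Prop where
  symm : ∀ i j, U i j = U j i
  sq : ∀ i j, ∑ m, U i m * U m j = 4 * U i j
  fix : ∀ i, ∑ m, U i m * d m = 4 * d i

variable {U V : I → I → ℤ} {d : I → ℤ}

theorem Prj.row (h : Prj U d) (i : I) : ∑ m, U i m ^ 2 = 4 * U i i := by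
  rw [← h.sq]; exact sum_congr rfl fun m _ => by rw [h.symm m i, pow_two]

theorem Prj.pos (h : Prj U d) {i : I} (hd : d i ≠ 0) : 1 ≤ U i i := by
  have h1 := h.row i
  have h2 : 0 ≤ ∑ m, U i m ^ 2 := sum_nonneg fun _ _ => sq_nonneg _
  by_contra h3
  rw [show U i i = 0 by omega, mul_zero, sum_eq_zero_iff_of_nonneg fun _ _ => sq_nonneg _] at h1
  have := h.fix i
  rw [sum_eq_zero fun m hm => by rw [pow_eq_zero_iff two_ne_zero |>.1 (h1 m hm), zero_mul]] at this
  omega

theorem abs_le_sq (n : ℤ) : |n| ≤ n ^ 2 := by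
  rw [← sq_abs]; have := abs_nonneg n; rcases zero_or_one_le this with h | h <;> nlinarith

theorem Prj.not13 (h : Prj U d) (hV : ∀ i j, ∑ m, U i m * V m j = d i * d j) {c c' : I}
    (hc : d c ^ 2 = 4) (hcc : c' ≠ c) (h1 : ∀ i, i ≠ c → d i ^ 2 = 1) : False := by
  have hdc : d c = 2 ∨ d c = -2 := sq_eq_sq_iff_eq_or_eq_neg.1 (by rw [hc]; norm_num)
  have hd : ∀ i, i ≠ c → d i = 1 ∨ d i = -1 := fun i hi => sq_eq_one_iff.1 (h1 i hi)
  have ev : ∀ i, 2 ∣ U i c := fun i => by
    have e1 := h.row i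
    have e2 := h.fix i
    rw [← add_sum_erase _ _ (mem_univ c)] at e1 e2
    have e3 : 2 ∣ ∑ m ∈ univ.erase c, (U i m ^ 2 - U i m * d m) := dvd_sum fun m hm => by
      rcases hd m (ne_of_mem_erase hm) with e | e <;> rw [e]
      · rw [show U i m ^ 2 - U i m * 1 = U i m * (U i m - 1) by ring]
        exact (Int.even_mul_pred_self _).two_dvd
      · rw [show U i m ^ 2 - U i m * -1 = U i m * (U i m + 1) by ring]
        exact (Int.even_mul_succ_self _).two_dvd
    rw [sum_sub_distrib] at e3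
    refine Int.prime_two.dvd_of_dvd_pow (n := 2) ?_
    rcases hdc with e | e <;> rw [e] at e2 <;> omega
  choose y hy using ev
  have e1 := h.row c
  have e2 := h.fix c
  have e3 := hV c c'
  have e4 := h.pos (i := c) (by omega)
  rw [← add_sum_erase _ _ (mem_univ c)] at e1 e2 e3
  simp only [h.symm c, hy, mul_pow, mul_assoc, ← mul_sum] at e1 e2 e3 e4
  have e5 : 0 ≤ ∑ m ∈ univ.erase c, y m ^ 2 := sum_nonneg fun _ _ => sq_nonneg _
  have e6 : |∑ m ∈ univ.erase c, y m * d m| ≤ ∑ m ∈ univ.erase c, y m ^ 2 :=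
    (abs_sum_le_sum_abs _ _).trans (sum_le_sum fun m hm => by
      rcases hd m (ne_of_mem_erase hm) with e | e <;> simpa [e] using abs_le_sq (y m))
  have e7 : y c = 1 ∨ y c = 2 := by
    have : y c ≤ 2 := by nlinarith
    omega
  rcases e7 with e | e <;> rw [e] at e1 e2 e3
  · rw [abs_le] at e6
    omega
  · have e8 : ∑ m ∈ univ.erase c, y m ^ 2 = 0 := by omega
    rw [sum_eq_zero_iff_of_nonneg fun _ _ => sq_nonneg _] at e8
    rw [sum_eq_zero fun m hm => by rw [pow_eq_zero_iff two_ne_zero |>.1 (e8 m hm), zero_mul]] at e3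
    rcases hdc with e' | e' <;> rcases hd c' hcc with e'' | e'' <;> rw [e', e''] at e3 <;> omega

end H85.C16
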