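import Mathlib
import Cfsg.Agent.Lib.C16.Num

set_option autoImplicit false
set_option linter.unusedSectionVars false

open Finset

namespace H85.C16

variable {I : Type*} [Fintype I] [DecidableEq I]

theorem mx_prj {U V : I → I → ℤ} {d : I → ℤ} (sU : ∀ i j, U i j = U j i)
    (qU : ∀ i j, ∑ m, U i m * U m j = 4 * U i j) (hUV : ∀ i j, ∑ m, U i m * V m j = d i * d j)
    (hd : ∀ i, d i ≠ 0) : Prj U d := by
  refine ⟨sU, qU, fun i => mul_right_cancel₀ (hd i) ?_⟩
  calc (∑ m, U i m * d m) * d i = ∑ m, ∑ l, U i m * U m l * V l i := by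
        rw [sum_mul]
        refine sum_congr rfl fun m _ => ?_
        rw [mul_assoc, ← hUV, mul_sum]
        exact sum_congr rfl fun l _ => by ring
    _ = ∑ l, 4 * (U i l * V l i) := by
        rw [sum_comm]
        exact sum_congr rfl fun l _ => by rw [← sum_mul, qU, mul_assoc]
    _ = _ := by rw [← mul_sum, hUV, mul_assoc]

/-- a zero-one matrix with row sums four -/
structure mx_ZO (U : I → I → ℤ) : Prop where
  symm : ∀ i j, U i j = U j i
  zo : ∀ i j, U i j = 0 ∨ U i j = 1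
  dg : ∀ i, U i i = 1
  row : ∀ i, ∑ m, U i m = 4
  tr : ∀ i j k, U i j = 1 → U j k = 1 → U i k = 1

theorem mx_zo {U : I → I → ℤ} {d : I → ℤ} (h : Prj U d) (h1 : ∀ i, d i ^ 2 = 1) (hc : Fintype.card I = 16)
    (tU : ∑ i, U i i = 16) : mx_ZO fun i j => d i * d j * U i j := by
  have hd : ∀ i, d i ≠ 0 := fun i e => by simpa [e] using h1 i
  have dg : ∀ i, U i i = 1 := fun i => by
    have : ∑ i, (U i i - 1) = 0 := by simp [tU, hc]
    have := (sum_eq_zero_iff_of_nonneg fun i _ => sub_nonneg.2 (h.pos (hd i))).1 this i (mem_univ i)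
    omega
  have row : ∀ i, ∑ m, d i * d m * U i m = 4 := fun i => by
    calc ∑ m, d i * d m * U i m = d i * ∑ m, U i m * d m := by
          rw [mul_sum]; exact sum_congr rfl fun m _ => by ring
      _ = 4 * d i ^ 2 := by rw [h.fix]; ring
      _ = 4 := by rw [h1, mul_one]
  have zo : ∀ i j, d i * d j * U i j = 0 ∨ d i * d j * U i j = 1 := fun i j => by
    have : ∑ m, (d i * d m * U i m) * (d i * d m * U i m - 1) = 0 := by
      calc _ = ∑ m, (U i m ^ 2 - d i * d m * U i m) := sum_congr rfl fun m _ => by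
            linear_combination (d m ^ 2 * U i m ^ 2) * h1 i + U i m ^ 2 * h1 m
        _ = 0 := by rw [sum_sub_distrib, h.row, dg, row]; rfl
    have := (sum_eq_zero_iff_of_nonneg fun m _ => by
      generalize d i * d m * U i m = n
      rcases le_or_gt n 0 with a | a <;> nlinarith).1 this j (mem_univ j)
    rwa [mul_eq_zero, sub_eq_zero] at this
  refine ⟨fun i j => by rw [h.symm i j, mul_comm (d i)], zo, fun i => by rw [dg, mul_one, ← pow_two, h1], row,
    fun i j k a b => (zo i k).resolve_left fun e => ?_⟩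
  have s : ∑ m, (d i * d m * U i m) * (d m * d k * U m k) = 0 := by
    calc _ = ∑ m, d i * d k * (U i m * U m k) := sum_congr rfl fun m _ => by
          linear_combination (d i * d k * U i m * U m k) * h1 m
      _ = 0 := by rw [← mul_sum, h.sq]; linear_combination 4 * e
  have := (sum_eq_zero_iff_of_nonneg fun m _ => by
    rcases zo i m with a | a <;> rcases zo m k with b | b <;> simp [a, b]).1 s j (mem_univ j)
  rw [a, b] at this
  omega

theorem mx_card {f : I → ℤ} (h : ∀ i, f i = 0 ∨ f i = 1) {n : ℕ} (s : ∑ i, f i = n) :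
    (univ.filter fun i => f i = 1).card = n := by
  have : ∑ i, f i = ((univ.filter fun i => f i = 1).card : ℤ) := by
    rw [card_filter]
    push_cast
    exact sum_congr rfl fun i _ => by rcases h i with e | e <;> simp [e]
  omega

theorem mx_uniq {U V : I → I → ℤ} (hU : mx_ZO U) (hV : mx_ZO V) (h : ∀ i j, ∑ m, U i m * V m j = 1) (i j : I) :
    ∃ a, ∀ m, U i m = 1 ∧ V m j = 1 ↔ m = a := by
  obtain ⟨a, ha⟩ := card_eq_one.1 (mx_card (f := fun m => U i m * V m j) (n := 1) (fun m => by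
    rcases hU.zo i m with a | a <;> rcases hV.zo m j with b | b <;> simp [a, b]) (h i j))
  refine ⟨a, fun m => ?_⟩
  rw [← mem_singleton (a := a), ← ha, mem_filter_univ]
  rcases hU.zo i m with a | a <;> rcases hV.zo m j with b | b <;> simp [a, b]

theorem mx_cls {U V : I → I → ℤ} (hU : mx_ZO U) (hV : mx_ZO V) (h : ∀ i j, ∑ m, U i m * V m j = 1) (i0 : I) :
    ∃ r : I → Fin 4, ∀ i j, U i j = if r i = r j then 1 else 0 := by
  choose a ha using fun i => mx_uniq hU hV h i i0
  let e := equivFinOfCardEq (mx_card (n := 4) (hV.zo i0) (hV.row i0))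
  refine ⟨fun i => e ⟨a i, mem_filter_univ _ |>.2 (hV.symm _ _ ▸ ((ha i _).2 rfl).2)⟩, fun i j => ?_⟩
  simp only [EmbeddingLike.apply_eq_iff_eq, Subtype.mk.injEq]
  split_ifs with c
  · exact hU.tr i (a j) j (c ▸ ((ha i _).2 rfl).1) (hU.symm _ _ ▸ ((ha j _).2 rfl).1)
  · exact (hU.zo i j).resolve_right fun e =>
      c ((ha i _).1 ⟨hU.tr i j _ e ((ha j _).2 rfl).1, ((ha j _).2 rfl).2⟩).symm

theorem mx (U V : I → I → ℤ) (d : I → ℤ) (sU : ∀ i j, U i j = U j i) (sV : ∀ i j, V i j = V j i)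
    (qU : ∀ i j, ∑ m, U i m * U m j = 4 * U i j) (qV : ∀ i j, ∑ m, V i m * V m j = 4 * V i j)
    (hUV : ∀ i j, ∑ m, U i m * V m j = d i * d j) (hd : ∀ i, d i ≠ 0) (h16 : ∑ i, d i ^ 2 = 16)
    (tU : ∑ i, U i i = 16) (tV : ∑ i, V i i = 16) :
    Fintype.card I ≤ 10 ∨ (Fintype.card I = 16 ∧ ∀ (x : I → ℤ) (q : ℤ),
      q = 16 * ∑ i, x i ^ 2 - 4 * ∑ i, ∑ j, x i * x j * U i j - 4 * ∑ i, ∑ j, x i * x j * V i j +
        (∑ i, x i * d i) ^ 2 → q = 0 ∨ 9 ≤ q) := by
  have hVU : ∀ i j, ∑ m, V i m * U m j = d i * d j := fun i j => by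
    rw [mul_comm (d i), ← hUV]
    exact sum_congr rfl fun m _ => by rw [sU m j, sV i m, mul_comm]
  have pU := mx_prj sU qU hUV hd
  have pV := mx_prj sV qV hVU hd
  refine or_iff_not_imp_left.2 fun hk => ?_
  have p1 : ∀ i, 0 ≤ d i ^ 2 - 1 := fun i => sub_nonneg.2 ((one_le_sq_iff_one_le_abs _).2 (Int.one_le_abs (hd i)))
  have p3 : ∀ i, d i ^ 2 ≠ 1 → d i ^ 2 = 4 ∨ 9 ≤ d i ^ 2 := fun i h => by
    have := Int.one_le_abs (hd i)
    rw [← sq_abs] at h ⊢
    generalize |d i| = n at *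
    obtain rfl | rfl | a : n = 1 ∨ n = 2 ∨ 3 ≤ n := by omega
    · simp at h
    · simp
    · right; nlinarith
  have hs : ∑ i, (d i ^ 2 - 1) = 16 - (Fintype.card I : ℤ) := by simp [h16]
  have h1 : ∀ i, d i ^ 2 = 1 := fun c => by
    by_contra hc
    have b := single_le_sum (f := fun i => d i ^ 2 - 1) (fun i _ => p1 i) (mem_univ c)
    obtain ⟨c', hc'⟩ := Fintype.exists_ne_of_one_lt_card (by omega) c
    refine pU.not13 hUV (by have := p3 c hc; omega) hc' fun i hi => by_contra fun h => ?_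
    have := sum_le_sum_of_subset_of_nonneg (f := fun i => d i ^ 2 - 1) (subset_univ {i, c}) fun i _ _ => p1 i
    rw [sum_pair hi] at this
    have := p3 c hc
    have := p3 i h
    omega
  have hc : Fintype.card I = 16 := by
    simp only [h1, sub_self, sum_const_zero] at hs
    omega
  refine ⟨hc, fun x q hq => ?_⟩
  have zU := mx_zo pU h1 hc tU
  have zV := mx_zo pV h1 hc tV
  have k : ∀ {A B : I → I → ℤ}, (∀ i j, ∑ m, A i m * B m j = d i * d j) →
      ∀ i j, ∑ m, d i * d m * A i m * (d m * d j * B m j) = 1 := fun {A B} h i j => by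
    calc _ = ∑ m, d i * d j * (A i m * B m j) := sum_congr rfl fun m _ => by
          linear_combination (d i * d j * A i m * B m j) * h1 m
      _ = 1 := by rw [← mul_sum, h]; linear_combination d j ^ 2 * h1 i + h1 j
  obtain ⟨i0⟩ : Nonempty I := Fintype.card_pos_iff.1 (by omega)
  obtain ⟨r, hr⟩ := mx_cls zU zV (k hUV) i0
  obtain ⟨s, hs⟩ := mx_cls zV zU (k hVU) i0
  have bij : Function.Bijective fun i => (r i, s i) := by
    refine (Fintype.bijective_iff_injective_and_card _).2 ⟨fun i j e => ?_, by simp [hc]⟩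
    obtain ⟨a, ha⟩ := mx_uniq zU zV (k hUV) i i
    rw [Prod.mk.injEq] at e
    rw [(ha i).1 ⟨zU.dg i, zV.dg i⟩, (ha j).1 ⟨by rw [hr, if_pos e.1], by rw [hs, if_pos e.2.symm]⟩]
  let e := (Equiv.ofBijective _ bij).symm
  have e1 : ∀ p, r (e p) = p.1 := fun p => congrArg Prod.fst (e.symm_apply_apply p)
  have e2 : ∀ p, s (e p) = p.2 := fun p => congrArg Prod.snd (e.symm_apply_apply p)
  have w : ∀ (A : I → I → ℤ) i j, x i * x j * A i j = x i * d i * (x j * d j) * (d i * d j * A i j) := fun A i j => by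
    linear_combination (-(x i * x j * A i j * d j ^ 2)) * h1 i - x i * x j * A i j * h1 j
  have t : ∀ (A : I → I → ℤ) (c : I → Fin 4), (∀ i j, d i * d j * A i j = if c i = c j then 1 else 0) →
      ∑ i, ∑ j, x i * x j * A i j =
        ∑ p, ∑ q, if c (e p) = c (e q) then x (e p) * d (e p) * (x (e q) * d (e q)) else 0 := fun A c hA => by
    rw [← e.sum_comp]
    refine sum_congr rfl fun p _ => ?_
    rw [← e.sum_comp]
    refine sum_congr rfl fun q _ => ?_
    rw [w, hA, mul_ite, mul_one, mul_zero]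
  have t1 : ∑ i, x i ^ 2 = ∑ a, ∑ b, (x (e (a, b)) * d (e (a, b))) ^ 2 := by
    rw [← e.sum_comp, Fintype.sum_prod_type]
    simp only [mul_pow, h1, mul_one]
  have t2 : ∑ i, ∑ j, x i * x j * U i j = ∑ a, (∑ b, x (e (a, b)) * d (e (a, b))) ^ 2 := by
    rw [t U r hr]
    simp only [e1, Fintype.sum_prod_type, pow_two, sum_mul_sum]
    refine sum_congr rfl fun a _ => sum_congr rfl fun b _ => ?_
    rw [sum_comm]
    simp only [sum_ite_eq, mem_univ, if_true]
  have t3 : ∑ i, ∑ j, x i * x j * V i j = ∑ b, (∑ a, x (e (a, b)) * d (e (a, b))) ^ 2 := by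
    rw [t V s hs]
    simp only [e2, Fintype.sum_prod_type, sum_ite_eq, mem_univ, if_true, pow_two, sum_mul_sum]
    exact sum_comm
  have t4 : ∑ i, x i * d i = ∑ a, ∑ b, x (e (a, b)) * d (e (a, b)) := by
    rw [← e.sum_comp, Fintype.sum_prod_type]
  refine grid (fun a b => x (e (a, b)) * d (e (a, b))) ?_
  rw [hq, t1, t2, t3, t4]

end H85.C16
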