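import Mathlib
import Cfsg.Agent.Lib.H85.FrobBlk

/-! The matrices of the operators `θ ↦ μ * θ` on the characters of a block. -/

set_option autoImplicit false
set_option linter.unusedSectionVars false
set_option linter.style.haveILetI false
attribute [local irreducible] H33.instFieldF

namespace H85.C16

open Cfsg H84 H35 H85 Finset
open H33 (F eB)
open H86 (Cen Nor cj cs eS St Mor)
open Subgroup (zpowers center closure)
open scoped SubFin ComplexConjugate

theorem sum_annih {K : Type*} [Group K] [Finite K] {N : Subgroup K} (hN : commutator K ≤ N)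
    [Fintype (annih N)] (u : K) [Decidable (u ∈ N)] :
    ∑ l : annih N, (((l : K →* ℂˣ) u : ℂˣ) : ℂ) = if u ∈ N then (N.index : ℂ) else 0 := by
  split_ifs with hu
  · rw [sum_congr rfl fun (l : annih N) _ => congrArg Units.val (l.2 u hu), ← card_annih hN]
    simp
  obtain ⟨l₀, hl⟩ : ∃ l₀ : annih N, (l₀ : K →* ℂˣ) u ≠ 1 := by
    by_contra! hc
    have h1 : annih N ≤ annih (N ⊔ zpowers u) := fun l hl =>
      (sup_le hl (Subgroup.zpowers_le.2 (hc ⟨l, hl⟩)) : N ⊔ zpowers u ≤ l.ker)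
    haveI : Finite (K →* ℂˣ) := inferInstance
    have h2 := Subgroup.card_le_of_le h1
    rw [card_annih hN, card_annih (hN.trans le_sup_left)] at h2
    have h3 := Subgroup.relIndex_mul_index (le_sup_left : N ≤ N ⊔ zpowers u)
    have h4 : (N ⊔ zpowers u).index ≠ 0 := Subgroup.index_ne_zero_of_finite
    have h5 : N.index ≠ 0 := Subgroup.index_ne_zero_of_finite
    have h6 : N.relIndex (N ⊔ zpowers u) = 1 := by
      rcases Nat.lt_trichotomy (N.relIndex (N ⊔ zpowers u)) 1 with h | h | h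
      · rw [Nat.lt_one_iff.1 h] at h3; omega
      · exact h
      · nlinarith [Nat.pos_of_ne_zero h4]
    exact hu (Subgroup.relIndex_eq_one.1 h6 (Subgroup.mem_sup_right (Subgroup.mem_zpowers u)))
  have h1 := Equiv.sum_comp (Equiv.mulLeft l₀) fun l : annih N => (((l : K →* ℂˣ) u : ℂˣ) : ℂ)
  simp only [Equiv.coe_mulLeft, Subgroup.coe_mul, MonoidHom.mul_apply, Units.val_mul,
    ← mul_sum] at h1
  by_contra h0
  exact hl (Units.val_eq_one.1 (mul_right_cancel₀ h0 (h1.trans (one_mul _).symm)))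

variable {G : Type*} [Group G] [Fintype G] {p : ℕ} [Fact p.Prime] {M : Ideal AlgInt} [M.IsMaximal]
  {B : Set (IrrCharacter G)} {P : Subgroup G} {e : MonoidAlgebra (F M) G} {μ ν : P → ℂ}
  {θ η : G → ℂ} {χ ψ : IrrCharacter G}

/-- The matrix coefficient of the operator `μ * ·`. -/
noncomputable def mm (p : ℕ) [Fact p.Prime] {G : Type*} [Group G] [Fintype G] (M : Ideal AlgInt)
    [M.IsMaximal] (P : Subgroup G) (e : MonoidAlgebra (F M) G) (μ : P → ℂ) (θ η : G → ℂ) : ℂ :=
  classInner θ (pstar p M P e μ η)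

theorem mm_eq_sum (h : MP p M B P e) (hμ : Stab p P e μ) (hθ : IsClassFunction G θ)
    (hη : IsClassFunction G η) :
    mm p M P e μ θ η = (Nat.card P : ℂ)⁻¹ * ∑ u : P, ctr p M P e θ η u * conj (μ u) :=
  h.inner_pstar_right hμ hθ hη

theorem mm_int (h : MP p M B P e) (hμ : Stab p P e μ) (hg : IsGeneralizedCharacter P μ)
    (hθ : IsGeneralizedCharacter G θ) (hη : IsGeneralizedCharacter G η) :
    ∃ n : ℤ, mm p M P e μ θ η = n := H6.gen_inner_int hθ (h.isGen_pstar hμ hg hη)

theorem mm_conj (h : MP p M B P e) (hμ : Stab p P e μ) (hr : ∀ u, conj (μ u) = μ u)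
    (hθ : IsClassFunction G θ) (hη : IsClassFunction G η) :
    conj (mm p M P e μ θ η) = mm p M P e μ η θ := by
  simp only [mm_eq_sum h hμ, hθ, hη, map_mul, map_inv₀, map_natCast, map_sum, conj_ctr, hr]

theorem mm_mul (h : MP p M B P e) (hν : Stab p P e ν) (θ : G → ℂ) (hη : IsClassFunction G η) :
    ∑ ξ ∈ bset B, mm p M P e μ θ ξ * mm p M P e ν ξ η = mm p M P e (μ * ν) θ η := by
  rw [mm, ← h.pstar_pstar hν hη, ← h.blockPart_pstar hν hη, blockPart_eq, pstar_sum,
    H6.classInner_sum_right]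
  refine sum_congr rfl fun ξ _ => ?_
  rw [pstar_smul, H6.classInner_smul_right, H6.conj_classInner, mul_comm, mm, mm]

theorem mm_add (θ η : G → ℂ) :
    mm p M P e (μ + ν) θ η = mm p M P e μ θ η + mm p M P e ν θ η := by
  rw [mm, pstar_add_left, H6.classInner_add_right, mm, mm]

theorem mm_sub (θ η : G → ℂ) :
    mm p M P e (μ - ν) θ η = mm p M P e μ θ η - mm p M P e ν θ η := by
  rw [mm, pstar_sub_left, H6.classInner_sub_right, mm, mm]

theorem mm_smul (c : ℂ) (θ η : G → ℂ) :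
    mm p M P e (c • μ) θ η = conj c * mm p M P e μ θ η := by
  rw [mm, pstar_smul_left, H6.classInner_smul_right, mm]

theorem mm_one [Decidable (χ = ψ)] (h : MP p M B P e) (hψ : ψ ∈ B) :
    mm p M P e 1 χ ψ = if χ = ψ then 1 else 0 := by
  rw [mm, h.pstar_one hψ, H6.irr_inner']
  congr

theorem sum_ctr_self (h : MP p M B P e) (u : P) :
    ∑ χ ∈ bset B, ctr p M P e χ χ u = Nat.card P * (wt p P e (u : G) : ℂ)⁻¹ *
      blockRank p (loc p M P e (zpowers (u : G))) := by
  rw [← sum_inner_sub_sub h.hM (h.isPElt u.2) (isCen_zpowers _) (h.induced_z u.2), mul_sum]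
  rfl

theorem mm_trace (h : MP p M B P e) (hμ : Stab p P e μ) :
    ∑ χ ∈ bset B, mm p M P e μ χ χ = ∑ u : P, conj (μ u) * (wt p P e (u : G) : ℂ)⁻¹ *
      blockRank p (loc p M P e (zpowers (u : G))) := by
  have h0 : (Nat.card P : ℂ) ≠ 0 := Nat.cast_ne_zero.2 Nat.card_pos.ne'
  simp only [mm_eq_sum h hμ (irr_class _) (irr_class _), ← mul_sum]
  rw [sum_comm, mul_sum]
  refine sum_congr rfl fun u _ => ?_
  rw [← sum_mul, sum_ctr_self h]
  field_simp

theorem ctr_one (h : MP p M B P e) (hθ : blockPart B θ = θ) (hη : blockPart B η = η) :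
    ctr p M P e θ η 1 = qf p B (pRegularPart p θ) (pRegularPart p η) := by
  obtain ⟨ψ, h1, h2⟩ := h.exists_equiv_one
  have : ∀ θ : G → ℂ, trF ψ (sec 1 (Cen (zpowers (1 : G))) θ) = θ := fun θ => funext fun x => by
    rw [trF_apply, sec_apply, one_mul, ← h1, MulEquiv.apply_symm_apply]
  rw [ctr, OneMemClass.coe_one, h.wt_one, ← inner_trF ψ, H84.sub_def, H84.sub_def, trF_reg, trF_reg,
    ← blockPart_trF, ← blockPart_trF, ← h2, this, this, hθ, hη, qf_apply, h.card_eq]
  simp

theorem ctr_one_irr (h : MP p M B P e) (hχ : χ ∈ B) (hψ : ψ ∈ B) :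
    ctr p M P e χ ψ 1 = qf p B (pRegularPart p χ) (pRegularPart p ψ) :=
  ctr_one h (blockPart_irr_of_mem hχ) (blockPart_irr_of_mem hψ)

end H85.C16
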