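import Mathlib
import Cfsg.Agent.Lib.C16.Defs
import Cfsg.Agent.Lib.K44.T0

set_option autoImplicit false
set_option linter.unusedSectionVars false
set_option linter.style.haveILetI false
attribute [local irreducible] H33.instFieldF

namespace H85.C16

open Cfsg H84 H85 K44
open H33 (F eB)
open H86 (Cen Nor cj cs eS St Mor)
open Subgroup (zpowers center closure)
open scoped SubFin

universe u

variable {G : Type u} [Group G] [Fintype G] {p : ℕ} [Fact p.Prime] {M : Ideal AlgInt} [M.IsMaximal]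
  {B : Set (IrrCharacter G)} {P N V₁ V₂ : Subgroup G} {e : MonoidAlgebra (F M) G} {u w u₁ u₂ : G}

theorem card_le_of_loc (h : MP p M B P e) (hu : u ∈ P ⊓ Cen P)
    (hb : Bd p (loc p M P e (zpowers u))) : Nat.card B ≤ Nat.card P := by
  rcases hb with hb | ⟨rfl, hb⟩
  · have hZ := Subgroup.zpowers_le.2 hu.1
    have := hb.mul_card_le (Nat.cast_nonneg _) h.hM (h.isPElt hu.1) (isCen_zpowers u)
      (h.induced_z hu.1) (h.defect_loc hZ (num_cen hu))
    have h0 : (0 : ℝ) < blockRank p (loc p M P e (zpowers u)) := by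
      exact_mod_cast blockRank_pos (H33.block_nonempty (h.blk hZ))
    rw [mul_comm] at this
    rw [h.card_eq]
    exact_mod_cast le_of_mul_le_mul_right this h0
  · exact card_le_of_rank h hu hb

theorem red (hM : IsPModular p M) (hB : IsPBlock M B) (hD : IsDefectGroup p M B P) (y : P)
    (hy : y ∈ center P) :
    ∃ (K : Type u) (_ : Group K) (_ : Fintype K) (c : Set (IrrCharacter K)) (φ : P →* K),
      IsPBlock M c ∧ IsDefectGroup p M c φ.range ∧ φ.ker = zpowers y ∧ Lift p φ y ∧
      (Bd p c → Nat.card B ≤ Nat.card P) := by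
  obtain ⟨e, m⟩ := exists_mp hM hB hD
  have c : ∀ g ∈ P, g * y = y * g := fun g hg =>
    congrArg Subtype.val (Subgroup.mem_center_iff.1 hy ⟨g, hg⟩)
  have hu : (y : G) ∈ P ⊓ Cen P := ⟨y.2, Subgroup.mem_centralizer_iff.2 c⟩
  have hQ : zpowers (y : G) ≤ P := Subgroup.zpowers_le.2 y.2
  have hc : P ≤ Cen (zpowers (y : G)) := num_cen hu
  let z' : Cen (zpowers (y : G)) := ⟨y, hc y.2⟩
  have hz : zpowers z' ≤ center _ := Subgroup.zpowers_le.2 (Subgroup.mem_center_iff.2 fun g =>
    Subtype.ext (Subgroup.mem_centralizer_iff.1 g.2 y (Subgroup.mem_zpowers _)).symm)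
  haveI : (zpowers z').Normal := ⟨fun n hn g => by
    rwa [Subgroup.mem_center_iff.1 (hz hn) g, mul_inv_cancel_right]⟩
  have hb := m.blk hQ
  have hd := m.isDef_loc hQ hc
  have hzP : zpowers z' ≤ P.subgroupOf _ := Subgroup.zpowers_le.2 (Subgroup.mem_subgroupOf.2 y.2)
  have hZ : IsPGroup p (zpowers z') := (H33.defect_isPGroup hd).to_le hzP
  have hq := H86.pQuot_of_le_center (p := p) hz
  letI := Fintype.ofFinite (Cen (zpowers (y : G)) ⧸ zpowers z')
  refine ⟨Cen (zpowers (y : G)) ⧸ zpowers z', inferInstance, inferInstance, H86.quotSet _ _,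
    (QuotientGroup.mk' _).comp (Subgroup.inclusion hc), H86.isPBlock_quotSet hM hb hZ hq, ?_, ?_,
    ?_, fun k => card_le_of_loc m hu ?_⟩
  · rw [MonoidHom.range_comp, Subgroup.inclusion_range]
    exact H86.isDefectGroup_quotSet hM hb hZ hq hd
  · ext g
    rw [MonoidHom.mem_ker, MonoidHom.comp_apply, QuotientGroup.mk'_apply, QuotientGroup.eq_one_iff]
    constructor
    · rintro ⟨n, hn⟩
      exact ⟨n, Subtype.ext (by simpa [z'] using congrArg Subtype.val hn)⟩
    · rintro ⟨n, rfl⟩
      exact ⟨n, Subtype.ext (by simp [z'])⟩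
  · intro t ht ho
    obtain ⟨x, rfl⟩ := QuotientGroup.mk'_surjective _ t
    have h1 := H86.mem_Nor_comap ht
    rw [MonoidHom.range_comp, Subgroup.inclusion_range,
      Subgroup.comap_map_eq_self ((QuotientGroup.ker_mk' _).le.trans hzP)] at h1
    have hx : (x : G) ∈ Nor P := Subgroup.mem_normalizer_fintype fun g hg =>
      (Subgroup.mem_normalizer_iff.1 h1 ⟨g, hc hg⟩).1 hg
    refine ⟨P.normalizerMonoidHom ⟨x, hx⟩, fun k => ho (k.trans (orderOf_dvd_of_pow_eq_one ?_)),
      Subtype.ext ?_, fun g => rfl⟩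
    · have h2 : x ^ orderOf (QuotientGroup.mk' (zpowers z') x) ∈ zpowers z' := by
        rw [← QuotientGroup.eq_one_iff, ← QuotientGroup.mk'_apply, map_pow, pow_orderOf_eq_one]
      rw [← map_pow, ← MonoidHom.mem_ker, Subgroup.normalizerMonoidHom_ker]
      exact Subgroup.mem_centralizer_iff.2 fun g hg =>
        congrArg Subtype.val (Subgroup.mem_center_iff.1 (hz h2) ⟨g, hc hg⟩)
    · change (x : G) * y * (x : G)⁻¹ = y
      rw [← Subgroup.mem_centralizer_iff.1 x.2 y (Subgroup.mem_zpowers _), mul_inv_cancel_right]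
  · rw [Bd, blockRank_quotSet hM hb hZ hq] at k
    exact k.imp_left fun k => k.of_quotSet hM hb hZ hq

end H85.C16
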