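import Mathlib
import Cfsg.Agent.Lib.C16.Defs
import Cfsg.Agent.Lib.C16.Num
import Cfsg.Agent.Lib.K44.Ext
import Cfsg.Agent.Lib.H85.FrobBlk

set_option autoImplicit false
set_option linter.unusedSectionVars false
set_option linter.style.haveILetI false
attribute [local irreducible] H33.instFieldF

namespace H85.C16

open Cfsg H84 H85 K44
open H33 (F eB)
open H86 (Cen Nor cj cs eS St Mor)
open Subgroup (zpowers center closure)
open scoped SubFin

universe u

variable {G : Type u} [Group G] [Fintype G] {p : ℕ} [Fact p.Prime] {M : Ideal AlgInt} [M.IsMaximal]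
  {B : Set (IrrCharacter G)} {P N V₁ V₂ : Subgroup G} {e : MonoidAlgebra (F M) G} {u w u₁ u₂ : G}

open Finset in
open scoped ComplexConjugate in
theorem t1_one (h : MP p M B P e) {χ ψ : IrrCharacter G} (hχ : χ ∈ B) (hψ : ψ ∈ B) :
    ctr p M P e χ ψ 1 = qf p B (pRegularPart p (χ : G → ℂ)) (pRegularPart p (ψ : G → ℂ)) := by
  obtain ⟨φ, h1, h2⟩ := h.exists_equiv_one
  have k : ∀ θ : G → ℂ, trF φ (sec 1 (Cen (zpowers (1 : G))) θ) = θ := fun θ => funext fun x => by
    rw [trF_apply, sec_apply, one_mul, ← h1, MulEquiv.apply_symm_apply]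
  rw [ctr, qf_apply, OneMemClass.coe_one, h.wt_one, ← inner_trF φ, H84.sub_def, H84.sub_def, trF_reg, trF_reg,
    ← blockPart_trF, ← blockPart_trF, ← h2, k, k, blockPart_irr_of_mem hχ, blockPart_irr_of_mem hψ,
    h.card_eq]
  simp

open Finset in
open scoped ComplexConjugate in
theorem t1_gram (h : MP p M B P e) (hab : P ≤ Cen P) (hf : Free P e) {ε : P → ℤ} (hε : Eps p M P e ε)
    {χ ψ : IrrCharacter G} (hχ : χ ∈ B) (hψ : ψ ∈ B) {a b : ℤ} {r : ℕ}
    (hr : r * Nat.card (inq P e) + 1 = Nat.card P)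
    (ha : ∀ u : P, u ≠ 1 → ε u * dv p M P e χ u = a) (hb : ∀ u : P, u ≠ 1 → ε u * dv p M P e ψ u = b) :
    qf p B (pRegularPart p (χ : G → ℂ)) (pRegularPart p (ψ : G → ℂ)) =
      Nat.card P * classInner (χ : G → ℂ) ψ - r * (a * b) := by
  letI : DecidableEq P := Classical.decEq _
  have h1 := h.inner_eq_ctr (irr_class χ) (irr_class ψ)
  have he : (Nat.card (inq P e) : ℂ) ≠ 0 := by exact_mod_cast Nat.card_pos.ne'
  have hP : (Nat.card P : ℂ) ≠ 0 := by exact_mod_cast Nat.card_pos.ne'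
  have h2 : ∀ u ∈ univ.erase (1 : P), ctr p M P e χ ψ u * conj (1 : ℂ) =
      (Nat.card (inq P e) : ℂ)⁻¹ * (a * b) := fun u hu => by
    have hu := ne_of_mem_erase hu
    have hb' := congrArg conj (hb u hu)
    rw [map_mul, map_intCast, map_intCast] at hb'
    rw [h.ctr_eq_dv u (hab.trans (H86.Cen_anti (Subgroup.zpowers_le.2 u.2)))
      (h.rank_loc_z hab hf u.2 fun k => hu (Subtype.ext k)), h.wt_of_free hab hf hu, ← ha u hu, ← hb',
      mul_mul_mul_comm, hε.mul_self, map_one, one_mul, mul_one]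
  rw [blockPart_irr_of_mem hψ] at h1
  rw [h1, classInner, ← add_sum_erase _ _ (mem_univ 1), sum_congr rfl h2, sum_const, t1_one h hχ hψ,
    card_erase_of_mem (mem_univ _), card_univ, ← Nat.card_eq_fintype_card,
    show Nat.card P - 1 = r * Nat.card (inq P e) by omega, map_one, nsmul_eq_mul]
  push_cast
  field_simp
  ring

open Finset in
theorem t1_alg {I : Type*} [Fintype I] [DecidableEq I] (x a : I → ℤ) {m q : ℤ} {N r : ℕ}
    (h : (m : ℂ) * (m * q) = ∑ i, (x i : ℂ) * ∑ j, (x j : ℂ) *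
      ((N * if j = i then 1 else 0) - r * (a j * a i))) :
    m ^ 2 * q = N * ∑ i, x i ^ 2 - r * (∑ i, a i * x i) ^ 2 := by
  have k : ∀ i, ∑ j, (x j : ℂ) * ((N * if j = i then 1 else 0) - r * (a j * a i)) =
      N * x i - r * (a i * ∑ j, (a j : ℂ) * x j) := fun i => by
    simp only [mul_sub, sum_sub_distrib, mul_ite, mul_one, mul_zero, sum_ite_eq', mem_univ, if_true,
      mul_sum]
    rw [mul_comm]
    exact congrArg _ (sum_congr rfl fun j _ => by ring)
  have k2 : ∑ i, (x i : ℂ) * (N * x i - r * (a i * ∑ j, (a j : ℂ) * x j)) =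
      N * ∑ i, (x i : ℂ) ^ 2 - r * (∑ i, (a i : ℂ) * x i) ^ 2 := by
    rw [pow_two (∑ i, (a i : ℂ) * x i), sum_mul, mul_sum, mul_sum univ _ (r : ℂ), ← sum_sub_distrib]
    exact sum_congr rfl fun j _ => by ring
  simp only [k, k2] at h
  exact_mod_cast (show (m : ℂ) ^ 2 * q = m * (m * q) by ring).trans h

open Finset in
open scoped ComplexConjugate IsMulCommutative in
theorem latMin_exc (h : MP p M B P e) (hab : P ≤ Cen P) (hf : Free P e)
    (hr : Nat.card (inq P e) + 1 < Nat.card P) : LatMin p B (blockRank p B) := by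
  haveI : IsMulCommutative P := ⟨⟨fun a b => Subtype.ext (hab b.2 a a.2)⟩⟩
  have hk := h.card_eq_rank_add hab hf
  have he : 0 < Nat.card (inq P e) := Nat.card_pos
  have h1 : P ≠ ⊥ := (Subgroup.one_lt_card_iff_ne_bot P).1 (by omega)
  haveI := Fintype.ofFinite B
  letI : DecidableEq B := Classical.decEq _
  obtain ⟨ε, hε⟩ := h.exists_Eps hab hf h1
  obtain ⟨δ, c, ζ, a, Y, hE, -, ha⟩ := h.exists_exc hab hf hε hr
  have h2 := hE.card
  rw [← Nat.card_eq_fintype_card] at h2
  rw [← h2, Nat.mul_div_cancel _ he, Nat.card_eq_fintype_card, ← card_add_card_compl Y,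
    add_comm, add_left_inj] at hk
  have h3 : Y.card * Nat.card (inq P e) + 1 = Nat.card P := by omega
  have h6 : (2 : ℤ) ≤ Y.card := by exact_mod_cast hE.two_le
  have hδ : δ ^ 2 = 1 := by rcases hE.sign with rfl | rfl <;> rfl
  have hm : (Y.card : ℤ) * c - δ ≠ 0 := fun k => by
    have : (Y.card : ℤ) ∣ δ := ⟨c, by omega⟩
    have := Int.le_of_dvd one_pos (hδ ▸ Dvd.dvd.pow this two_ne_zero)
    omega
  have hP : (Nat.card P : ℤ) = Y.card * ∑ i ∈ Yᶜ, a i ^ 2 + (Y.card * c - δ) ^ 2 := by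
    rw [← h3]
    push_cast
    linear_combination (-(Y.card : ℤ)) * hE.norm + (Y.card - 1) * hδ
  obtain ⟨y, hy⟩ := card_pos.1 (show 0 < Y.card by have := hE.two_le; omega)
  have rel := fun g : G => hE.rel (fun χ => pRegularPart p ((χ : IrrCharacter G) : G → ℂ) g) fun u hu => by
    by_cases hg : p ∣ orderOf g
    · simp only [reg_apply, if_pos hg, zero_mul, sum_const_zero]
    · have := h.sum_reg_conj_dv u.2 (fun k => hu (Subtype.ext k)) hg
      rw [← sum_coe_bset] at this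
      simp only [reg_apply, if_neg hg, map_mul, map_intCast, mul_left_comm _ (ε u : ℂ), ← mul_sum, this,
        mul_zero]
  intro f hfl hf0
  obtain ⟨q, hq⟩ := qf_int hfl hfl
  obtain ⟨n, hn⟩ := mem_lat_iff.1 hfl
  rw [← sum_coe_bset] at hn
  have h4 : (((Y.card : ℤ) * c - δ : ℤ) : ℂ) • f = ∑ j : ↥Yᶜ,
      ((((Y.card : ℤ) * c - δ) * n j - (∑ i ∈ Y, n i) * a j : ℤ) : ℂ) •
        pRegularPart p (((j : B) : IrrCharacter G) : G → ℂ) := by
    ext g
    rw [sum_coe_sort Yᶜ fun j => ((((Y.card : ℤ) * c - δ) * n j - (∑ i ∈ Y, n i) * a j : ℤ) : ℂ) •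
      pRegularPart p (((j : B) : IrrCharacter G) : G → ℂ), hn, ← sum_add_sum_compl Y]
    simp only [Pi.smul_apply, Pi.add_apply, Finset.sum_apply, smul_eq_mul]
    rw [sum_congr rfl fun i hi => congrArg (_ * ·) ((rel g).1 i hi y hy), ← sum_mul]
    push_cast
    simp only [sub_mul _ (_ * (a _ : ℂ)), sum_sub_distrib, mul_assoc, ← mul_sum]
    linear_combination (∑ i ∈ Y, (n i : ℂ)) * (rel g).2 y hy
  have h5 : ∀ i j : ↥Yᶜ, qf p B (pRegularPart p (((i : B) : IrrCharacter G) : G → ℂ))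
      (pRegularPart p (((j : B) : IrrCharacter G) : G → ℂ)) =
      Nat.card P * (if i = j then 1 else 0) - Y.card * (a i * a j) := fun i j => by
    rw [t1_gram h hab hf hε i.1.2 j.1.2 h3 (hE.const _ (mem_compl.1 i.2)) (hE.const _ (mem_compl.1 j.2))]
    congr 2
    split_ifs with k
    · rw [k]; exact H6.irr_inner_self j.1.1.2
    · exact H6.irr_inner_ne i.1.1.2 j.1.1.2 fun k' => k (Subtype.ext (Subtype.ext (Subtype.ext k')))
  have h7 := congrArg₂ (fun x y => qf p B x y) h4 h4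
  simp only [map_smul, map_smulₛₗ, map_sum, LinearMap.smul_apply, LinearMap.sum_apply, smul_eq_mul,
    map_intCast, hq, h5, RingHom.id_apply] at h7
  have h8 := exc_form (fun j : ↥Yᶜ => a j) (fun j => n j) (fun j => ha j (mem_compl.1 j.2))
    (r := Y.card) (s := ∑ i ∈ Y, n i) (q := q) (by omega) hm (by
      rw [sum_coe_sort Yᶜ fun j => a j ^ 2, ← hP]
      exact t1_alg _ _ h7)
  rcases h8 with rfl | h8
  · exact absurd (qf_self_eq_zero.1 (hq.trans Int.cast_zero)) hf0
  · rw [hq, Fintype.card_coe, hk] at *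
    exact_mod_cast h8

end H85.C16
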