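import Mathlib
import Cfsg.Agent.Lib.C16.Defs
import Cfsg.Agent.Lib.C16.Num
import Cfsg.Agent.Lib.C16.Mat
import Cfsg.Agent.Lib.OL5.M8

set_option autoImplicit false
set_option linter.unusedSectionVars false
set_option linter.style.haveILetI false
attribute [local irreducible] H33.instFieldF

namespace H85.C16

open Cfsg H84 H85 K44
open H33 (F eB)
open H86 (Cen Nor cj cs eS St Mor)
open Subgroup (zpowers center closure)
open scoped SubFin ComplexConjugate

universe u

variable {G : Type u} [Group G] [Fintype G] {p : ℕ} [Fact p.Prime] {M : Ideal AlgInt} [M.IsMaximal]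
  {B : Set (IrrCharacter G)} {P N V₁ V₂ : Subgroup G} {e : MonoidAlgebra (F M) G} {u w u₁ u₂ : G}

theorem w_foc (h : MP p M B P e) (hab : P ≤ Cen P) (q : WG P (St ⊤ P e) N w) (u v : P)
    (huv : Fus p P e u v) : u⁻¹ * v ∈ N.subgroupOf P := by
  obtain ⟨t, ht, h1⟩ := (H86.fus_iff_of_ab h hab u.2).1 huv
  rw [Subgroup.mem_subgroupOf, Subgroup.coe_mul, Subgroup.coe_inv, h1]
  exact q.foc t ht u u.2

theorem w_fus (h : MP p M B P e) (hab : P ≤ Cen P) (q : WG P (St ⊤ P e) N w) (v : P) :
    Fus p P e w v ↔ v ∈ N.subgroupOf P ∧ v ≠ 1 := by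
  have hw := q.le q.mem
  constructor
  · intro hf
    refine ⟨?_, fun h1 => q.ne (isConj_one_left.1 (by simpa [h1] using hf.isConj))⟩
    simpa using mul_mem (show (⟨w, hw⟩ : P) ∈ N.subgroupOf P from q.mem) (w_foc h hab q ⟨w, hw⟩ v hf)
  · rintro ⟨h1, h2⟩
    obtain ⟨t, ht, h3⟩ := q.tr v h1 fun h4 => h2 (Subtype.ext h4)
    exact h3 ▸ h.fus_conj hw ht

theorem w_rank (h : MP p M B P e) (hab : P ≤ Cen P) (q : WG P (St ⊤ P e) N w) :
    blockRank p (loc p M P e (zpowers w)) = 1 :=
  MP.blockRank_of_nil h.hM ((h.nil_loc_iff hab (Subgroup.zpowers_le.2 (q.le q.mem))).2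
    fun t ht => q.fr t ht.1 w q.mem q.ne (by
      rw [← Subgroup.mem_centralizer_iff.1 ht.2 w (Subgroup.mem_zpowers w), mul_inv_cancel_right]))

theorem w_form (h : MP p M B P e) (hab : P ≤ Cen P) (q : WG P (St ⊤ P e) N w)
    [Fintype (annih (N.subgroupOf P))] {χ ψ : IrrCharacter G} (hχ : χ ∈ B) (hψ : ψ ∈ B) :
    qf p B (pRegularPart p χ) (pRegularPart p ψ) = Nat.card N * ∑ l : annih (N.subgroupOf P),
      classInner (χ : G → ℂ) (pstar p M P e (fun u => (l : P →* ℂˣ) u) ψ) -
      dv p M P e χ w * conj (dv p M P e ψ w) := by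
  letI : DecidableEq P := Classical.decEq _
  letI : DecidablePred (· ∈ N.subgroupOf P) := Classical.decPred _
  letI : DecidablePred fun v : P => Fus p P e w v := Classical.decPred _
  have hw := q.le q.mem
  have hN := w_foc h hab q
  have hμ : (∑ l : annih (N.subgroupOf P), fun u : P => (((l : P →* ℂˣ) u : ℂˣ) : ℂ)) =
      fun u => if u ∈ N.subgroupOf P then ((N.subgroupOf P).index : ℂ) else 0 := by
    funext u
    rw [Finset.sum_apply, sum_annih (h.commutator_le hN)]
  have hs : Stab p P e fun u => if u ∈ N.subgroupOf P then ((N.subgroupOf P).index : ℂ) else 0 := by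
    intro u v huv
    exact if_congr (by simpa using (Subgroup.mul_mem_cancel_right _ (hN u v huv) (y := u)).symm)
      rfl rfl
  have h1 := mm_eq_sum h hs (irr_class χ) (irr_class ψ)
  rw [mm, ← hμ, pstar_sum_left, H6.classInner_sum_right] at h1
  have hwt : wt p P e w = (Finset.univ.filter fun v : P => v ∈ N.subgroupOf P ∧ v ≠ 1).card := by
    rw [wt, Nat.card_eq_fintype_card, Fintype.card_subtype]
    exact congrArg _ (Finset.filter_congr fun v _ => w_fus h hab q v)
  have h2 : ∑ u ∈ Finset.univ.filter fun v : P => v ∈ N.subgroupOf P ∧ v ≠ 1,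
      ctr p M P e χ ψ u = dv p M P e χ w * conj (dv p M P e ψ w) := by
    rw [Finset.sum_congr rfl fun u hu => (h.stab_ctr (irr_class χ) (irr_class ψ) ⟨w, hw⟩ u
      ((w_fus h hab q u).2 (Finset.mem_filter.1 hu).2)).symm, Finset.sum_const, ← hwt,
      h.ctr_eq_dv ⟨w, hw⟩ (hab.trans (H86.Cen_anti (Subgroup.zpowers_le.2 hw))) (w_rank h hab q),
      nsmul_eq_mul, mul_inv_cancel_left₀ (h.wt_ne_zero hw)]
  have h3 : ∑ u : P, ctr p M P e χ ψ u *
      conj (if u ∈ N.subgroupOf P then ((N.subgroupOf P).index : ℂ) else 0) =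
      (N.subgroupOf P).index * (ctr p M P e χ ψ 1 + dv p M P e χ w * conj (dv p M P e ψ w)) := by
    rw [← h2, Finset.sum_filter, ← Finset.add_sum_erase _ _ (Finset.mem_univ 1),
      ← Finset.add_sum_erase _ _ (Finset.mem_univ (1 : P)), if_pos (one_mem _), if_neg (by simp),
      zero_add, mul_add, map_natCast, mul_comm, Finset.mul_sum]
    refine congrArg _ (Finset.sum_congr rfl fun u hu => ?_)
    by_cases k : u ∈ N.subgroupOf P <;> simp [k, Finset.ne_of_mem_erase hu, mul_comm]
  have h4 : ((N.subgroupOf P).index : ℂ) * Nat.card N = Nat.card P := by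
    rw [← Nat.card_congr (Subgroup.subgroupOfEquivOfLe q.le).toEquiv]
    exact_mod_cast (N.subgroupOf P).index_mul_card
  have h0 : (Nat.card P : ℂ) ≠ 0 := Nat.cast_ne_zero.2 Nat.card_pos.ne'
  rw [h1, h3, ctr_one_irr h hχ hψ, mul_left_comm, ← mul_assoc (Nat.card N : ℂ), mul_comm (Nat.card N : ℂ),
    h4, inv_mul_cancel_left₀ h0, add_sub_cancel_right]

theorem w_orb (h : MP p M B P e) (hab : P ≤ Cen P) (q : WG P (St ⊤ P e) N w) :
    ∃ (Ω : Type u) (_ : Fintype Ω) (_ : DecidableEq Ω) (A : Type u) (_ : Fintype A) (r : Ω → B)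
      (Φ : Ω × A ≃ B), Fintype.card A * Nat.card N = Nat.card P ∧
      (∀ x, pRegularPart p ((Φ x : IrrCharacter G) : G → ℂ) =
        pRegularPart p ((r x.1 : IrrCharacter G) : G → ℂ)) ∧
      (∀ x, dv p M P e (Φ x : IrrCharacter G) w = dv p M P e (r x.1 : IrrCharacter G) w) ∧
      ∀ i j, qf p B (pRegularPart p (r i : IrrCharacter G)) (pRegularPart p (r j : IrrCharacter G)) =
        (if i = j then (Nat.card N : ℂ) else 0) -
          dv p M P e (r i : IrrCharacter G) w * conj (dv p M P e (r j : IrrCharacter G) w) := by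
  classical
  have hw := q.le q.mem
  have hN := w_foc h hab q
  have hs := MP.stab_of_annih hN
  letI := Fintype.ofFinite (annih (N.subgroupOf P))
  letI : MulAction (annih (N.subgroupOf P)) B :=
    { smul := fun l χ => ⟨⟨_, h.isIrr_pstar (hs l) χ.2⟩, h.mem_of_pstar (hs l) (irr_class χ.1)
        (by rw [H6.irr_inner_self (h.isIrr_pstar (hs l) χ.2)]; exact one_ne_zero)⟩
      one_smul := fun χ => Subtype.ext (Subtype.ext (h.pstar_one χ.2))
      mul_smul := fun l l' χ => Subtype.ext (Subtype.ext (by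
        change pstar p M P e _ _ = pstar p M P e _ (pstar p M P e _ _)
        rw [h.pstar_pstar (hs l') (irr_class χ.1)]
        rfl)) }
  have hv : ∀ (l : annih (N.subgroupOf P)) (χ : B), (((l • χ : B) : IrrCharacter G) : G → ℂ) =
      pstar p M P e (fun u => (l : P →* ℂˣ) u) (χ : IrrCharacter G) := fun _ _ => rfl
  have fr : ∀ (l : annih (N.subgroupOf P)) (χ : B), l • χ = χ → l = 1 := fun l χ hl => by
    refine Subtype.ext (MonoidHom.ext fun z => ?_)
    have h3 := h.sub_pstar (hs l) (irr_class χ.1) z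
    rw [← hv, hl, eq_comm, ← sub_eq_zero] at h3
    nth_rewrite 2 [← one_smul ℂ (H84.sub _ _ _ _ _)] at h3
    rw [← _root_.sub_smul, smul_eq_zero, sub_eq_zero] at h3
    exact Units.val_eq_one.1 (h3.resolve_right (sub_ne_zero_of_major h.hM (h.isPElt z.2)
      (isCen_zpowers _) (h.induced_z z.2) (h.defect_loc (Subgroup.zpowers_le.2 z.2)
        (hab.trans (H86.Cen_anti (Subgroup.zpowers_le.2 z.2)))) χ.2))
  let Ω := Quotient (MulAction.orbitRel (annih (N.subgroupOf P)) B)
  letI := Fintype.ofFinite Ω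
  have hq : ∀ (i j : Ω) (l : annih (N.subgroupOf P)), i.out = l • j.out ↔ i = j ∧ l = 1 := by
    refine fun i j l => ⟨fun hl => ?_, by rintro ⟨rfl, rfl⟩; rw [one_smul]⟩
    obtain rfl : i = j := Quotient.out_equiv_out.1 ⟨l, hl.symm⟩
    exact ⟨rfl, fr l _ hl.symm⟩
  have hb : Function.Bijective fun x : Ω × annih (N.subgroupOf P) => x.2 • x.1.out := by
    refine ⟨fun x y hxy => ?_, fun χ => ?_⟩
    · have := (hq x.1 y.1 (x.2⁻¹ * y.2)).1 (by rw [mul_smul, eq_inv_smul_iff]; exact hxy)
      exact Prod.ext this.1 (inv_mul_eq_one.1 this.2)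
    · obtain ⟨l, hl⟩ := (MulAction.orbitRel _ B).symm
        (Quotient.mk_out (s := MulAction.orbitRel (annih (N.subgroupOf P)) B) χ)
      exact ⟨(Quotient.mk _ χ, l), hl⟩
  refine ⟨Ω, inferInstance, inferInstance, annih (N.subgroupOf P), inferInstance, Quotient.out,
    Equiv.ofBijective _ hb, ?_, fun x => ?_, fun x => ?_, fun i j => ?_⟩
  · rw [← Nat.card_eq_fintype_card, card_annih (h.commutator_le hN),
      ← Nat.card_congr (Subgroup.subgroupOfEquivOfLe q.le).toEquiv, Subgroup.index_mul_card]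
  · rw [Equiv.ofBijective_apply, hv, h.reg_pstar (hs _) x.1.out.2, map_one, Units.val_one, one_smul]
  · rw [Equiv.ofBijective_apply, hv, h.dv_pstar (hs _) (irr_class _) ⟨w, hw⟩,
      x.2.2 ⟨w, hw⟩ q.mem, Units.val_one, one_mul]
  · rw [w_form h hab q i.out.2 j.out.2]
    simp only [← hv, H6.irr_inner', Subtype.val_inj, hq]
    by_cases k : i = j <;> simp [k]

theorem w_main (h : MP p M B P e) (hab : P ≤ Cen P) (q : WG P (St ⊤ P e) N w) :
    LatMin p B (blockRank p B) ∧ (p = 2 → Nat.card N = 4 → w ^ 2 = 1 → blockRank p B = 3) := by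
  classical
  have hw := q.le q.mem
  have hc := hab.trans (H86.Cen_anti (Subgroup.zpowers_le.2 hw))
  obtain ⟨Ω, _, _, A, _, r, Φ, hA, h1, h2, h3⟩ := w_orb h hab q
  letI := Fintype.ofFinite B
  have hsum : ∀ f : IrrCharacter G → G → ℂ,
      ∑ χ ∈ bset B, f χ = ∑ i, ∑ a, f (Φ (i, a)) := fun f => by
    rw [← sum_coe_bset, ← Φ.sum_comp, Fintype.sum_prod_type]
  have hsum' : ∀ f : IrrCharacter G → ℂ, ∑ χ ∈ bset B, f χ = ∑ i, ∑ a, f (Φ (i, a)) := fun f => by
    rw [← sum_coe_bset, ← Φ.sum_comp, Fintype.sum_prod_type]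
  have hP : ((p : ℂ)) ^ blockDefect p B = Fintype.card A * Nat.card N := by
    exact_mod_cast h.card_eq.symm.trans hA.symm
  have hA0 : (Fintype.card A : ℂ) ≠ 0 := Nat.cast_ne_zero.2 fun h0 => by
    rw [h0, zero_mul] at hA; exact Nat.card_pos.ne hA
  have hN0 : (Nat.card N : ℂ) ≠ 0 := Nat.cast_ne_zero.2 Nat.card_pos.ne'
  set d : Ω → ℂ := fun i => dv p M P e (r i : IrrCharacter G) w with hd
  have d0 : ∀ i, d i ≠ 0 := fun i => h.dv_ne_zero hw hc (w_rank h hab q) (r i).2
  have s1 : ∑ i, d i * conj (d i) = Nat.card N := by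
    have := h.sum_dv_self hw (w_rank h hab q)
    rw [hsum', h.defect_loc (Subgroup.zpowers_le.2 hw) hc, hP] at this
    simp only [h2, Finset.sum_const, nsmul_eq_mul, ← Finset.mul_sum, Finset.card_univ] at this
    exact mul_left_cancel₀ hA0 this
  have s2 : blockRank p B + 1 = Fintype.card Ω := by
    have := sum_qf_reg h.hM h.hB
    rw [hsum', hP] at this
    simp only [h1, h3, Finset.sum_const, nsmul_eq_mul, ← Finset.mul_sum, Finset.card_univ, if_true,
      Finset.sum_sub_distrib, mul_assoc] at this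
    have e0 := mul_left_cancel₀ hA0 this
    rw [show ∑ i, dv p M P e (r i : IrrCharacter G) w * conj (dv p M P e (r i : IrrCharacter G) w) =
      Nat.card N from s1] at e0
    have : ((blockRank p B : ℂ) + 1) = Fintype.card Ω :=
      mul_left_cancel₀ hN0 (by linear_combination -e0)
    exact_mod_cast this
  have ht : ∀ i j, ∃ t : ℤ, (t : ℂ) = d i * conj (d j) := fun i j => by
    obtain ⟨n, hn⟩ := qf_int (reg_mem_lat (p := p) (r i).2) (reg_mem_lat (r j).2)
    rw [h3] at hn
    refine ⟨(if i = j then (Nat.card N : ℤ) else 0) - n, ?_⟩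
    simp only [hd]
    push_cast
    linear_combination hn
  choose t ht using ht
  have s3 : ∑ i, t i i = Nat.card N := by
    have : ((∑ i, t i i : ℤ) : ℂ) = Nat.card N := by rw [← s1]; push_cast; simp only [ht]
    exact_mod_cast this
  refine ⟨fun f hf h0 => ?_, fun hp h4 w2 => ?_⟩
  · obtain ⟨n, hn⟩ := mem_lat_iff.1 hf
    set x : Ω → ℤ := fun i => ∑ a, n (Φ (i, a)) with hx
    have e1 : f = ∑ i, (x i : ℂ) • pRegularPart p ((r i : IrrCharacter G) : G → ℂ) := by
      rw [hn, hsum]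
      simp only [h1, hx, Int.cast_sum, Finset.sum_smul]
    have e2 : qf p B f f =
        ((∑ i, t i i) * ∑ i, x i ^ 2 - ∑ i, ∑ j, x i * x j * t i j : ℤ) := by
      rw [s3, e1]
      simp only [map_sum, LinearMap.sum_apply, map_smul, map_smulₛₗ, LinearMap.smul_apply,
        smul_eq_mul, h3, map_intCast, mul_sub, Finset.sum_sub_distrib, mul_ite, mul_zero,
        Finset.sum_ite_eq', Finset.mem_univ, if_true]
      push_cast
      simp only [ht, Finset.mul_sum]
      rw [Finset.sum_comm (f := fun i j => (x i : ℂ) * x j * (d i * conj (d j)))]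
      congr 1
      · exact Finset.sum_congr rfl fun i _ => by ring
      · exact Finset.sum_congr rfl fun i _ => Finset.sum_congr rfl fun j _ => by ring
    rcases lagr d d0 t ht x with k | k
    · rw [k, Int.cast_zero] at e2
      exact absurd (qf_self_eq_zero.1 e2) h0
    · rw [e2, Complex.intCast_re]
      rw [← s2] at k
      exact_mod_cast (by push_cast at k; omega : (blockRank p B : ℤ) ≤ _)
  · subst hp
    choose m hm using fun i => OL5.exists_int_dv_of_sq h hw w2 (irr_gen (r i : IrrCharacter G))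
    have e1 : ∑ i, m i ^ 2 = 4 := by
      have : ((∑ i, m i ^ 2 : ℤ) : ℂ) = 4 := by
        rw [h4] at s1
        simp only [hd, hm, map_intCast] at s1
        push_cast
        simpa only [pow_two, Nat.cast_ofNat] using s1
      exact_mod_cast this
    have e2 := card_le_sum_sq Finset.univ (a := m) fun i _ k => d0 i (by
      simp only [hd, hm, k, Int.cast_zero])
    have e3 := blockRank_pos (p := 2) (block_nonempty h.hB)
    rw [e1, Finset.card_univ] at e2
    omega

theorem wg_loc (h : MP p M B P e) (hab : P ≤ Cen P) (hu : u ∈ P)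
    (q : WG P (St ⊤ P e ⊓ Cen (zpowers u)) N w) :
    LatMin p (loc p M P e (zpowers u)) (blockRank p (loc p M P e (zpowers u))) ∧
      (p = 2 → Nat.card N = 4 → w ^ 2 = 1 → blockRank p (loc p M P e (zpowers u)) = 3) := by
  haveI := H33.charP h.hM
  have hQ := Subgroup.zpowers_le.2 hu
  have hc := hab.trans (H86.Cen_anti hQ)
  obtain ⟨e', he, h'⟩ := h.down hQ hc
  have hS : ∀ t : Cen (zpowers u), t ∈ St ⊤ (P.subgroupOf (Cen (zpowers u))) e' ↔
      (t : G) ∈ St ⊤ P e ⊓ Cen (zpowers u) := fun t => by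
    rw [St_subgroupOf hc, he, Subgroup.mem_subgroupOf, ← H86.St_inf, top_inf_eq]
  have := w_main (N := N.subgroupOf _) (w := ⟨w, hc (q.le q.mem)⟩) h' (ab_subgroupOf hc hab)
    ⟨fun x hx => q.le hx, q.mem, fun k => q.ne (congrArg Subtype.val k),
      fun t ht x hx => q.foc t ((hS t).1 ht) x hx, fun v hv v1 => ?_, fun t ht v hv v1 k => ?_⟩
  · rw [Nat.card_congr (Subgroup.subgroupOfEquivOfLe (q.le.trans hc)).toEquiv] at this
    exact ⟨this.1, fun a b c => this.2 a b (Subtype.ext c)⟩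
  · obtain ⟨t, ht, k⟩ := q.tr v hv fun k => v1 (Subtype.ext k)
    exact ⟨⟨t, ht.2⟩, (hS _).2 ht, Subtype.ext k⟩
  · have := q.fr t ((hS t).1 ht) v hv (fun k => v1 (Subtype.ext k)) (congrArg Subtype.val k)
    exact Subgroup.mem_centralizer_iff.2 fun x hx =>
      Subtype.ext (Subgroup.mem_centralizer_iff.1 this x hx)

theorem wg_top (h : MP p M B P e) (hab : P ≤ Cen P) (q : WG P (St ⊤ P e) N w) :
    LatMin p B (blockRank p B) := (w_main h hab q).1

end H85.C16
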